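import Mathlib
import Cfsg.Agent.Lib.Helper6.A7.Defs
import Cfsg.Agent.Lib.Helper17.Simple
import Cfsg.Agent.Lib.Helper17.Count
import Cfsg.Agent.Lib.Helper80.CharKer
import Cfsg.Agent.Lib.Helper91.SSK1

/-!
# S0984, package (D1): a simple group of order `2520` has no irreducible character of degree
four with value `-1` on the non-identity elements of a Sylow `5`-subgroup

Such a character `η` has no fixed vector under the Sylow `5`-subgroup `P`, so its sums over
the cosets of `P` vanish. An element `u` of order four of `N(P)` acts without fixed points on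
`P`, so the coset `P u ^ j` consists of conjugates of `u ^ j` and `η (u ^ j) = 0` for `4 ∤ j`.
Hence the eigenvalues of `u` are `1, i, -1, -i`, of product `-1`, against `det = 1`.
-/

set_option autoImplicit false

namespace Cfsg.Agent.Lib.Helper3.A7

open Cfsg

universe u

section

variable {G : Type u} [Group G] [Finite G]

/-- If the sum of the character of a representation over a subgroup `H` vanishes, then so do
its sums over the cosets `H g`. -/
theorem sum_coset_char_eq_zero {n : ℕ} (ρ : Representation ℂ G (Fin n → ℂ)) (H : Subgroup G)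
    [Fintype H] (h0 : ∑ x : H, ρ.character (x : G) = 0) (g : G) :
    ∑ x : H, ρ.character ((x : G) * g) = 0 := by
  classical
  have hne : (Nat.card H : ℂ) ≠ 0 := by exact_mod_cast Nat.card_pos.ne'
  let _ : Invertible (Nat.card H : ℂ) := invertibleOfNonzero hne
  have h := Representation.card_inv_mul_sum_char_eq_finrank (ρ.comp H.subtype)
  have hsum : ∑ x : H, Representation.character (ρ.comp H.subtype) x = 0 := h0
  rw [hsum, mul_zero] at h
  have hfin : Module.finrank ℂ (Representation.invariants (ρ.comp H.subtype)) = 0 := by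
    exact_mod_cast h.symm
  have hbot : Representation.invariants (ρ.comp H.subtype) = ⊥ :=
    Submodule.finrank_eq_zero.mp hfin
  have he0 : (∑ x : H, ρ (x : G)) = 0 := by
    apply LinearMap.ext
    intro v
    have hmem : (∑ x : H, ρ (x : G)) v ∈ Representation.invariants (ρ.comp H.subtype) := by
      rw [Representation.mem_invariants]
      intro y
      change ρ (y : G) ((∑ x : H, ρ (x : G)) v) = (∑ x : H, ρ (x : G)) v
      rw [LinearMap.sum_apply, map_sum]
      have hxy : ∀ x : H, ρ (y : G) (ρ (x : G) v) = ρ ((y * x : H) : G) v := by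
        intro x
        rw [Subgroup.coe_mul, map_mul]
        rfl
      rw [Finset.sum_congr rfl (fun x _ => hxy x)]
      exact Fintype.sum_equiv (Equiv.mulLeft y) _ _ (fun x => rfl)
    rw [hbot, Submodule.mem_bot] at hmem
    rw [hmem]
    rfl
  have hsum2 : ∑ x : H, ρ.character ((x : G) * g) =
      LinearMap.trace ℂ (Fin n → ℂ) ((∑ x : H, ρ (x : G)) * ρ g) := by
    rw [Finset.sum_mul, map_sum]
    refine Finset.sum_congr rfl (fun x _ => ?_)
    rw [← map_mul]
    rfl
  rw [hsum2, he0, zero_mul, map_zero]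

omit [Finite G] in
/-- An element commuting with a non-identity element of a self-centralizing subgroup `P` of
prime order lies in `P`. -/
theorem mem_of_commute_of_card_prime {p : ℕ} (hp : p.Prime) (P : Subgroup G)
    (hP : Nat.card P = p) (hC : Subgroup.centralizer (P : Set G) = P) (z : G) (hz : z ∈ P)
    (hz1 : z ≠ 1) (w : G) (hwz : w * z = z * w) : w ∈ P := by
  have hzP : Subgroup.zpowers z = P :=
    Cfsg.Agent.Lib.Helper17.zpowers_eq_of_mem_of_card_prime hp _ hP z hz hz1
  have hcomm : Commute w z := hwz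
  have hwC : w ∈ Subgroup.centralizer (P : Set G) := by
    rw [Subgroup.mem_centralizer_iff]
    intro h hh
    have hh' : h ∈ Subgroup.zpowers z := by rw [hzP]; exact hh
    obtain ⟨j, rfl⟩ := Subgroup.mem_zpowers_iff.mp hh'
    exact ((hcomm.zpow_right j).eq).symm
  rw [hC] at hwC
  exact hwC

/-- An element of `N(P) \ P` of square one inverts `P`, for `P` of order five with
`C(P) = P`. -/
theorem conj_eq_inv_of_sq_eq_one (P : Subgroup G) (hP5 : Nat.card P = 5)
    (hC : Subgroup.centralizer (P : Set G) = P) (z : G) (hz : z ∈ P) (hz1 : z ≠ 1)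
    (w : G) (hw : w ∈ Subgroup.normalizer (P : Set G)) (hwP : w ∉ P) (hw2 : w ^ 2 = 1) :
    w * z * w⁻¹ = z⁻¹ := by
  have h5 : Nat.Prime 5 := by norm_num
  have hzo : orderOf z = 5 :=
    Cfsg.Agent.Lib.Helper17.orderOf_eq_of_mem_of_card_prime h5 _ hP5 z hz hz1
  have hzP : Subgroup.zpowers z = P :=
    Cfsg.Agent.Lib.Helper17.zpowers_eq_of_mem_of_card_prime h5 _ hP5 z hz hz1
  have hz5 : z ^ 5 = 1 := by
    rw [← hzo]
    exact pow_orderOf_eq_one z
  have hconj : w * z * w⁻¹ ∈ P := (Subgroup.mem_normalizer_iff.mp hw z).mp hz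
  rw [← hzP] at hconj
  obtain ⟨k, hk⟩ := (Submonoid.mem_powers_iff _ _).mp (mem_powers_iff_mem_zpowers.mpr hconj)
  have hr : z ^ (k % 5) = w * z * w⁻¹ := by
    rw [← hk, ← hzo]
    exact pow_mod_orderOf z k
  have hr5 : k % 5 < 5 := Nat.mod_lt _ (by norm_num)
  generalize k % 5 = r at hr hr5
  have hc : ∀ m : ℕ, w * z ^ m * w⁻¹ = z ^ (r * m) := by
    intro m
    rw [pow_mul, hr, conj_pow]
  have h2' : z ^ (r * r) = z ^ 1 := by
    rw [← hc r, hr, pow_one]
    have : w * (w * z * w⁻¹) * w⁻¹ = w ^ 2 * z * (w ^ 2)⁻¹ := by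
      simp only [pow_succ, pow_zero, one_mul, mul_inv_rev, mul_assoc]
    rw [this, hw2]
    group
  have hmod : r * r % 5 = 1 % 5 := by
    have := (pow_eq_pow_iff_modEq).mp h2'
    rw [hzo] at this
    exact this
  have hcases : r = 1 ∨ r = 4 := by
    interval_cases r <;> omega
  rcases hcases with rfl | rfl
  · exfalso
    rw [pow_one] at hr
    have hwz : w * z = z * w := by
      calc w * z = w * z * w⁻¹ * w := by group
        _ = z * w := by rw [← hr]
    exact hwP (mem_of_commute_of_card_prime h5 P hP5 hC z hz hz1 w hwz)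
  · rw [← hr, eq_inv_iff_mul_eq_one, ← pow_succ]
    exact hz5

/-- The normalizer of a self-centralizing subgroup `P` of order five with `|N(P)| = 20`
contains an element of order four. -/
theorem exists_orderOf_four_of_sylow5 (P : Subgroup G) (hP5 : Nat.card P = 5)
    (hC : Subgroup.centralizer (P : Set G) = P)
    (hN : Nat.card (Subgroup.normalizer (P : Set G)) = 20) :
    ∃ u ∈ Subgroup.normalizer (P : Set G), orderOf u = 4 := by
  classical
  have h5 : Nat.Prime 5 := by norm_num
  have h2 : Fact (Nat.Prime 2) := ⟨by norm_num⟩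
  obtain ⟨z, hz, hz1⟩ : ∃ z ∈ P, z ≠ 1 := by
    by_contra hcon
    push Not at hcon
    have : P = ⊥ := (Subgroup.eq_bot_iff_forall P).mpr hcon
    rw [this, Subgroup.card_bot] at hP5
    norm_num at hP5
  have hzo : orderOf z = 5 :=
    Cfsg.Agent.Lib.Helper17.orderOf_eq_of_mem_of_card_prime h5 _ hP5 z hz hz1
  obtain ⟨K0, hK0⟩ := Sylow.exists_subgroup_card_pow_prime 2 (n := 2)
    (G := Subgroup.normalizer (P : Set G)) (by rw [hN]; norm_num)
  set K : Subgroup G := K0.map (Subgroup.normalizer (P : Set G)).subtype with hKdef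
  have hK : Nat.card K = 4 := by
    rw [hKdef, Subgroup.card_map_of_injective (Subgroup.subtype_injective _), hK0]
    norm_num
  have hKN : K ≤ Subgroup.normalizer (P : Set G) := Subgroup.map_subtype_le K0
  have hK4 : ∀ x ∈ K, x ^ 4 = 1 := by
    intro x hx
    have h1 : orderOf x ∣ Nat.card K := Subgroup.orderOf_dvd_natCard K hx
    rw [hK] at h1
    exact orderOf_dvd_iff_pow_eq_one.mp h1
  by_contra hcon
  push Not at hcon
  have hK2 : ∀ x ∈ K, x ^ 2 = 1 := by
    intro x hx
    by_contra hx2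
    apply hcon x (hKN hx)
    have hd : orderOf x ∣ 4 := orderOf_dvd_of_pow_eq_one (hK4 x hx)
    have hle : orderOf x ≤ 4 := Nat.le_of_dvd (by norm_num) hd
    have hnd : ¬ orderOf x ∣ 2 := fun h => hx2 (orderOf_dvd_iff_pow_eq_one.mp h)
    generalize orderOf x = o at hd hle hnd ⊢
    interval_cases o <;> first | rfl | (exfalso; revert hd hnd; decide)
  have hKP : ∀ x ∈ K, x ≠ 1 → x ∉ P := by
    intro x hx hx1 hmem
    have h5' : orderOf x ∣ 5 := by
      have := Subgroup.orderOf_dvd_natCard P hmem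
      rwa [hP5] at this
    have h2' : orderOf x ∣ 2 := orderOf_dvd_of_pow_eq_one (hK2 x hx)
    have h1 : orderOf x ∣ Nat.gcd 5 2 := Nat.dvd_gcd h5' h2'
    have h1' : orderOf x = 1 := by
      have h52 : Nat.gcd 5 2 = 1 := by norm_num
      rw [h52] at h1
      exact Nat.dvd_one.mp h1
    exact hx1 (orderOf_eq_one_iff.mp h1')
  have key : ∀ x ∈ K, x ≠ 1 → x * z * x⁻¹ = z⁻¹ := fun x hx hx1 =>
    conj_eq_inv_of_sq_eq_one P hP5 hC z hz hz1 x (hKN hx) (hKP x hx hx1) (hK2 x hx)
  obtain ⟨a, haK, ha1⟩ : ∃ a ∈ K, a ≠ 1 := by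
    by_contra hcon2
    push Not at hcon2
    have : K = ⊥ := (Subgroup.eq_bot_iff_forall K).mpr hcon2
    rw [this, Subgroup.card_bot] at hK
    norm_num at hK
  have hao : orderOf a = 2 := orderOf_eq_prime (hK2 a haK) ha1
  obtain ⟨b, hbK, hb⟩ : ∃ b ∈ K, b ∉ Subgroup.zpowers a := by
    by_contra hcon2
    push Not at hcon2
    have hle : K ≤ Subgroup.zpowers a := hcon2
    have := Subgroup.card_le_of_le hle
    rw [hK, Nat.card_zpowers, hao] at this
    norm_num at this
  have hb1 : b ≠ 1 := fun h => hb (h ▸ one_mem _)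
  have hab1 : a * b ≠ 1 := by
    intro h
    apply hb
    have : b = a⁻¹ := eq_inv_of_mul_eq_one_right h
    rw [this]
    exact inv_mem (Subgroup.mem_zpowers a)
  have e1 := key a haK ha1
  have e2 := key b hbK hb1
  have e3 := key (a * b) (mul_mem haK hbK) hab1
  have e4 : (a * b) * z * (a * b)⁻¹ = z := by
    calc (a * b) * z * (a * b)⁻¹ = a * (b * z * b⁻¹) * a⁻¹ := by group
      _ = a * z⁻¹ * a⁻¹ := by rw [e2]
      _ = (a * z * a⁻¹)⁻¹ := by group
      _ = z := by rw [e1, inv_inv]
  rw [e4] at e3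
  have hz2 : z ^ 2 = 1 := by
    rw [pow_two]
    nth_rewrite 2 [e3]
    exact mul_inv_cancel z
  have hdvd : orderOf z ∣ 2 := orderOf_dvd_of_pow_eq_one hz2
  rw [hzo] at hdvd
  norm_num at hdvd

/-- For `w ∈ N(P) \ P` the coset `P w` consists of conjugates of `w`. -/
theorem sum_coset_eq_of_not_mem (P : Subgroup G) [Fintype P] (hP5 : Nat.card P = 5)
    (hC : Subgroup.centralizer (P : Set G) = P) {χ : G → ℂ} (hχ : IsCharacter G χ)
    (w : G) (hw : w ∈ Subgroup.normalizer (P : Set G)) (hwP : w ∉ P) :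
    ∑ x : P, χ ((x : G) * w) = 5 * χ w := by
  classical
  have h5 : Nat.Prime 5 := by norm_num
  have hmem : ∀ x : P, (x : G) * w * (x : G)⁻¹ * w⁻¹ ∈ P := by
    intro x
    have h1 : w * (x : G)⁻¹ * w⁻¹ ∈ P :=
      (Subgroup.mem_normalizer_iff.mp hw _).mp (inv_mem x.2)
    have : (x : G) * w * (x : G)⁻¹ * w⁻¹ = (x : G) * (w * (x : G)⁻¹ * w⁻¹) := by group
    rw [this]
    exact mul_mem x.2 h1
  set f : P → P := fun x => ⟨(x : G) * w * (x : G)⁻¹ * w⁻¹, hmem x⟩ with hf
  have hinj : Function.Injective f := by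
    intro x y hxy
    have h1 : (x : G) * w * (x : G)⁻¹ * w⁻¹ = (y : G) * w * (y : G)⁻¹ * w⁻¹ :=
      congrArg Subtype.val hxy
    have h2 : (x : G) * w * (x : G)⁻¹ = (y : G) * w * (y : G)⁻¹ := mul_right_cancel h1
    by_contra hne
    have ht : (y : G)⁻¹ * (x : G) ∈ P := mul_mem (inv_mem y.2) x.2
    have ht1 : (y : G)⁻¹ * (x : G) ≠ 1 := by
      intro h
      apply hne
      have : (x : G) = (y : G) := by
        have := eq_inv_of_mul_eq_one_right h
        rw [this, inv_inv]
      exact Subtype.ext this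
    have hcomm : w * ((y : G)⁻¹ * (x : G)) = ((y : G)⁻¹ * (x : G)) * w := by
      calc w * ((y : G)⁻¹ * (x : G))
          = (y : G)⁻¹ * ((y : G) * w * (y : G)⁻¹) * (x : G) := by group
        _ = (y : G)⁻¹ * ((x : G) * w * (x : G)⁻¹) * (x : G) := by rw [h2]
        _ = ((y : G)⁻¹ * (x : G)) * w := by group
    exact hwP (mem_of_commute_of_card_prime h5 P hP5 hC _ ht ht1 w hcomm)
  have hbij : Function.Bijective f := ⟨hinj, Finite.injective_iff_surjective.mp hinj⟩
  have hre : ∑ x : P, χ ((x : G) * w) = ∑ x : P, χ ((f x : G) * w) :=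
    (Function.Bijective.sum_comp hbij (fun x : P => χ ((x : G) * w))).symm
  rw [hre]
  have hval : ∀ x : P, χ ((f x : G) * w) = χ w := by
    intro x
    have : (f x : G) * w = (x : G) * w * (x : G)⁻¹ := by
      change (x : G) * w * (x : G)⁻¹ * w⁻¹ * w = _
      group
    rw [this]
    exact Cfsg.Agent.Lib.Helper80.char_conj_eq hχ w x
  rw [Finset.sum_congr rfl (fun x _ => hval x), Finset.sum_const, Finset.card_univ,
    ← Nat.card_eq_fintype_card, hP5]
  simp

end

/-- **Package (D1).** -/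
theorem lemNoDeg4 : Cfsg.Agent.Lib.Helper6.A7.LemNoDeg4.{u} := by
  intro G _ _ _ hD P η h4 hval
  classical
  have h5 : Fact (Nat.Prime 5) := ⟨by norm_num⟩
  have hcard := hD.card
  let _ : Fintype (P : Subgroup G) := Fintype.ofFinite _
  have hP5 : Nat.card (P : Subgroup G) = 5 := by
    have := Cfsg.Agent.Lib.Helper17.card_sylow_eq_of_card_eq 5 1 504 (by rw [hcard]; norm_num)
      (by norm_num) P
    simpa using this
  have hcardP : Fintype.card (P : Subgroup G) = 5 := by
    rw [← Nat.card_eq_fintype_card, hP5]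
  obtain ⟨n, ρ, -, hρ⟩ := η.2
  have hχc : IsCharacter G (η : G → ℂ) :=
    Cfsg.Agent.Lib.Helper80.isCharacter_of_isIrrCharacter η.2
  -- the sum of `η` over `P` vanishes
  have hsum : ∑ x : (P : Subgroup G), (η : G → ℂ) (x : G) = 0 := by
    have hpt : ∀ x : (P : Subgroup G),
        (η : G → ℂ) (x : G) = -1 + (if x = 1 then (5 : ℂ) else 0) := by
      intro x
      split_ifs with h
      · rw [h, Subgroup.coe_one, h4]
        norm_num
      · rw [add_zero]
        exact hval x x.2 (fun h' => h (Subtype.ext h'))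
    rw [Finset.sum_congr rfl (fun x _ => hpt x), Finset.sum_add_distrib, Finset.sum_const,
      Finset.sum_ite_eq' Finset.univ (1 : (P : Subgroup G)) (fun _ => (5 : ℂ)), Finset.card_univ,
      hcardP]
    simp
  -- hence so do its sums over the cosets of `P`
  have hcos : ∀ g : G, ∑ x : (P : Subgroup G), (η : G → ℂ) ((x : G) * g) = 0 := by
    intro g
    have h0 : ∑ x : (P : Subgroup G), ρ.character (x : G) = 0 := by
      rw [hρ]
      exact hsum
    have := sum_coset_char_eq_zero ρ (P : Subgroup G) h0 g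
    rw [hρ] at this
    exact this
  obtain ⟨u, huN, huo⟩ := exists_orderOf_four_of_sylow5 (P : Subgroup G) hP5 (hD.c5 P) (hD.n5 P)
  have hzero : ∀ j : ℕ, ¬ 4 ∣ j → (η : G → ℂ) (u ^ j) = 0 := by
    intro j hj
    have hjN : u ^ j ∈ Subgroup.normalizer ((P : Subgroup G) : Set G) := pow_mem huN j
    have hjP : u ^ j ∉ (P : Subgroup G) := by
      intro hmem
      have h1 : orderOf (u ^ j) ∣ 5 := by
        have := Subgroup.orderOf_dvd_natCard _ hmem
        rwa [hP5] at this
      have h2 : (u ^ j) ^ 5 = 1 := orderOf_dvd_iff_pow_eq_one.mp h1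
      rw [← pow_mul] at h2
      have h3 : 4 ∣ j * 5 := by
        rw [← huo]
        exact orderOf_dvd_of_pow_eq_one h2
      omega
    have h1 := sum_coset_eq_of_not_mem (P : Subgroup G) hP5 (hD.c5 P) hχc (u ^ j) hjN hjP
    rw [hcos (u ^ j)] at h1
    have h50 : (5 : ℂ) ≠ 0 := by norm_num
    exact (mul_eq_zero.mp h1.symm).resolve_left h50
  obtain ⟨ι, hι, ν, hν4, hpow, hprod⟩ :=
    Cfsg.Agent.Lib.Helper91.SS.exists_eigenvalues (by rw [hcard]; norm_num) η u
  rw [huo] at hν4
  have hcardι : Fintype.card ι = 4 := by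
    have h0 := hpow 0
    simp only [pow_zero, Finset.sum_const, Finset.card_univ, nsmul_eq_mul, mul_one] at h0
    rw [h4] at h0
    exact_mod_cast h0.symm
  have hp1 : ∑ i, ν i = 0 := by
    have := hpow 1
    rw [hzero 1 (by norm_num)] at this
    simpa using this.symm
  have hp2 : ∑ i, ν i ^ 2 = 0 := by
    have := hpow 2
    rw [hzero 2 (by norm_num)] at this
    exact this.symm
  let e : Fin 4 ≃ ι := (Fintype.equivFinOfCardEq hcardι).symm
  have t1 : ∑ k : Fin 4, ν (e k) = 0 := by
    rw [← hp1]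
    exact Equiv.sum_comp e ν
  have t2 : ∑ k : Fin 4, ν (e k) ^ 2 = 0 := by
    rw [← hp2]
    exact Equiv.sum_comp e (fun i => ν i ^ 2)
  have tp : ∏ k : Fin 4, ν (e k) = 1 := by
    rw [← hprod]
    exact Equiv.prod_comp e ν
  rw [Fin.sum_univ_four] at t1 t2
  rw [Fin.prod_univ_four] at tp
  have ha := hν4 (e 0)
  have hb := hν4 (e 1)
  have hc := hν4 (e 2)
  have hd := hν4 (e 3)
  generalize ν (e 0) = a at t1 t2 tp ha
  generalize ν (e 1) = b at t1 t2 tp hb
  generalize ν (e 2) = c at t1 t2 tp hc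
  generalize ν (e 3) = d at t1 t2 tp hd
  have hneg : a * b * c * d = -1 := by
    linear_combination
      ((a + b + c + d) ^ 3 - 6 * (a + b + c + d) * (a ^ 2 + b ^ 2 + c ^ 2 + d ^ 2)
        + 8 * (a ^ 3 + b ^ 3 + c ^ 3 + d ^ 3)) / 24 * t1
      + (a ^ 2 + b ^ 2 + c ^ 2 + d ^ 2) / 8 * t2 - (1 / 4) * (ha + hb + hc + hd)
  rw [tp] at hneg
  norm_num at hneg

end Cfsg.Agent.Lib.Helper3.A7
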