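import Mathlib
import Cfsg.Agent.Lib.Helper6.A7.Defs
import Cfsg.Agent.Lib.Helper17.Simple
import Cfsg.Agent.Lib.Helper17.Count
import Cfsg.Agent.Lib.Helper79.ClassMult
import Cfsg.Agent.Lib.Helper80.CharKer
import Cfsg.Agent.Lib.Helper80.SchurBound

/-!
# S0984, package (D2): a simple group of order `2520` has no real irreducible character of
degree nine
-/

set_option autoImplicit false

namespace Cfsg.Agent.Lib.Helper3.A7

open Cfsg

universe u

section

variable {G : Type u} [Group G] [Finite G]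

/-- Conjugation by an element of order three of `N(P)` gives `χ(z²) = χ(z)` on a Sylow
`7`-subgroup `P` of order seven with `C(P) = P` and `|N(P)| = 21`. -/
theorem char_sq_eq_of_sylow7 {χ : G → ℂ} (hχ : IsCharacter G χ) (P : Sylow 7 G)
    (hP7 : Nat.card (P : Subgroup G) = 7)
    (hC : Subgroup.centralizer ((P : Subgroup G) : Set G) = (P : Subgroup G))
    (hN : Nat.card (Subgroup.normalizer ((P : Subgroup G) : Set G)) = 21)
    (z : G) (hz : z ∈ (P : Subgroup G)) (hz1 : z ≠ 1) : χ (z ^ 2) = χ z := by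
  classical
  have h7 : Nat.Prime 7 := by norm_num
  have h3 : Fact (Nat.Prime 3) := ⟨by norm_num⟩
  have hzo : orderOf z = 7 :=
    Cfsg.Agent.Lib.Helper17.orderOf_eq_of_mem_of_card_prime h7 _ hP7 z hz hz1
  have hzP : Subgroup.zpowers z = (P : Subgroup G) :=
    Cfsg.Agent.Lib.Helper17.zpowers_eq_of_mem_of_card_prime h7 _ hP7 z hz hz1
  obtain ⟨n', hn'⟩ := exists_prime_orderOf_dvd_card'
    (G := Subgroup.normalizer ((P : Subgroup G) : Set G)) 3 (by rw [hN]; norm_num)
  have hnN : (n' : G) ∈ Subgroup.normalizer ((P : Subgroup G) : Set G) := n'.2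
  have hno : orderOf (n' : G) = 3 := by rw [Subgroup.orderOf_coe, hn']
  generalize (n' : G) = n at hnN hno
  have hn3 : n ^ 3 = 1 := by rw [← hno]; exact pow_orderOf_eq_one n
  have hconj : n * z * n⁻¹ ∈ (P : Subgroup G) := (Subgroup.mem_normalizer_iff.mp hnN z).mp hz
  rw [← hzP] at hconj
  obtain ⟨k, hk⟩ := (Submonoid.mem_powers_iff _ _).mp (mem_powers_iff_mem_zpowers.mpr hconj)
  have hr : z ^ (k % 7) = n * z * n⁻¹ := by
    rw [← hk, ← hzo]
    exact pow_mod_orderOf z k
  have hr7 : k % 7 < 7 := Nat.mod_lt _ (by norm_num)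
  generalize k % 7 = r at hr hr7
  have hc : ∀ m : ℕ, n * z ^ m * n⁻¹ = z ^ (r * m) := by
    intro m
    rw [pow_mul, hr, conj_pow]
  have h3' : z ^ (r * (r * r)) = z ^ 1 := by
    rw [← hc (r * r), ← hc r, hr, pow_one]
    have : n * (n * (n * z * n⁻¹) * n⁻¹) * n⁻¹ = n ^ 3 * z * (n ^ 3)⁻¹ := by
      simp only [pow_succ, pow_zero, one_mul, mul_inv_rev, mul_assoc]
    rw [this, hn3]
    group
  have hmod : r * (r * r) % 7 = 1 % 7 := by
    have := (pow_eq_pow_iff_modEq).mp h3'
    rw [hzo] at this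
    exact this
  have hcases : r = 1 ∨ r = 2 ∨ r = 4 := by
    interval_cases r <;> omega
  rcases hcases with rfl | rfl | rfl
  · -- `n` centralizes `z`, hence `P`
    exfalso
    rw [pow_one] at hr
    have hcomm : Commute n z := by
      have : n * z = z * n := by
        calc n * z = n * z * n⁻¹ * n := by group
          _ = z * n := by rw [← hr]
      exact this
    have hnC : n ∈ Subgroup.centralizer ((P : Subgroup G) : Set G) := by
      rw [Subgroup.mem_centralizer_iff]
      intro h hh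
      have hh' : h ∈ Subgroup.zpowers z := by rw [hzP]; exact hh
      obtain ⟨j, rfl⟩ := Subgroup.mem_zpowers_iff.mp hh'
      exact ((hcomm.zpow_right j).eq).symm
    rw [hC] at hnC
    have := Subgroup.orderOf_dvd_natCard _ hnC
    rw [hno, hP7] at this
    norm_num at this
  · rw [hr]
    exact Cfsg.Agent.Lib.Helper80.char_conj_eq hχ z n
  · have h16 : z ^ 2 = n * z ^ 4 * n⁻¹ := by
      rw [hc 4]
      have : z ^ (4 * 4) = z ^ ((4 * 4) % orderOf z) := (pow_mod_orderOf z (4 * 4)).symm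
      rw [this, hzo]
    rw [h16, Cfsg.Agent.Lib.Helper80.char_conj_eq hχ, hr]
    exact Cfsg.Agent.Lib.Helper80.char_conj_eq hχ z n

/-- A real character is constant on the non-identity elements of such a Sylow `7`-subgroup. -/
theorem char_const_of_sylow7 {χ : G → ℂ} (hχ : IsCharacter G χ)
    (hreal : ∀ g, χ g⁻¹ = χ g) (P : Sylow 7 G)
    (hP7 : Nat.card (P : Subgroup G) = 7)
    (hC : Subgroup.centralizer ((P : Subgroup G) : Set G) = (P : Subgroup G))
    (hN : Nat.card (Subgroup.normalizer ((P : Subgroup G) : Set G)) = 21)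
    (y : G) (hy : y ∈ (P : Subgroup G)) (hy1 : y ≠ 1) (w : G) (hw : w ∈ (P : Subgroup G))
    (hw1 : w ≠ 1) : χ w = χ y := by
  classical
  have h7 : Nat.Prime 7 := by norm_num
  have hyo : orderOf y = 7 :=
    Cfsg.Agent.Lib.Helper17.orderOf_eq_of_mem_of_card_prime h7 _ hP7 y hy hy1
  have hyP : Subgroup.zpowers y = (P : Subgroup G) :=
    Cfsg.Agent.Lib.Helper17.zpowers_eq_of_mem_of_card_prime h7 _ hP7 y hy hy1
  have hsq := char_sq_eq_of_sylow7 hχ P hP7 hC hN
  have hne : ∀ i : ℕ, 0 < i → i < 7 → y ^ i ≠ 1 := by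
    intro i hi0 hi7
    exact pow_ne_one_of_lt_orderOf hi0.ne' (by rw [hyo]; exact hi7)
  have hmem : ∀ i : ℕ, y ^ i ∈ (P : Subgroup G) := fun i => pow_mem hy i
  have hred : ∀ i : ℕ, y ^ i = y ^ (i % 7) := by
    intro i
    rw [← hyo]
    exact (pow_mod_orderOf y i).symm
  have h2 : χ (y ^ 2) = χ y := hsq y hy hy1
  have h4 : χ (y ^ 4) = χ y := by
    have := hsq (y ^ 2) (hmem 2) (hne 2 (by norm_num) (by norm_num))
    rw [← pow_mul] at this
    rw [this, h2]
  have h6 : χ (y ^ 6) = χ y := by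
    have h7' : y ^ 7 = 1 := by
      rw [← hyo]
      exact pow_orderOf_eq_one y
    have : y ^ 6 = y⁻¹ := by
      rw [eq_inv_iff_mul_eq_one, ← pow_succ]
      exact h7'
    rw [this, hreal]
  have h5 : χ (y ^ 5) = χ y := by
    have := hsq (y ^ 6) (hmem 6) (hne 6 (by norm_num) (by norm_num))
    rw [← pow_mul, hred (6 * 2)] at this
    norm_num at this
    rw [this, h6]
  have h3 : χ (y ^ 3) = χ y := by
    have := hsq (y ^ 5) (hmem 5) (hne 5 (by norm_num) (by norm_num))
    rw [← pow_mul, hred (5 * 2)] at this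
    norm_num at this
    rw [this, h5]
  have hw' : w ∈ Subgroup.zpowers y := by rw [hyP]; exact hw
  obtain ⟨k, hk⟩ := (Submonoid.mem_powers_iff _ _).mp (mem_powers_iff_mem_zpowers.mpr hw')
  rw [hred k] at hk
  have hr7 : k % 7 < 7 := Nat.mod_lt _ (by norm_num)
  generalize k % 7 = r at hk hr7
  subst hk
  interval_cases r
  · exact absurd (pow_zero y) hw1
  · rw [pow_one]
  · exact h2
  · exact h3
  · exact h4
  · exact h5
  · exact h6

/-- A real irreducible character of degree nine has absolute value at least two on the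
elements of order seven. -/
theorem four_le_norm_sq_of_sylow7 {χ : G → ℂ} (hχ : IsIrrCharacter G χ) (h9 : χ 1 = 9)
    (hreal : ∀ g, χ g⁻¹ = χ g) (P : Sylow 7 G)
    (hP7 : Nat.card (P : Subgroup G) = 7)
    (hC : Subgroup.centralizer ((P : Subgroup G) : Set G) = (P : Subgroup G))
    (hN : Nat.card (Subgroup.normalizer ((P : Subgroup G) : Set G)) = 21)
    (y : G) (hy : y ∈ (P : Subgroup G)) (hy1 : y ≠ 1) : (4 : ℝ) ≤ ‖χ y‖ ^ 2 := by
  classical
  have hχc : IsCharacter G χ := Cfsg.Agent.Lib.Helper80.isCharacter_of_isIrrCharacter hχ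
  let _ : Fintype (P : Subgroup G) := Fintype.ofFinite _
  have hconst := char_const_of_sylow7 hχc hreal P hP7 hC hN y hy hy1
  have hcardP : Fintype.card (P : Subgroup G) = 7 := by
    rw [← Nat.card_eq_fintype_card, hP7]
  have hsum : ∑ w : (P : Subgroup G), χ (w : G) = 9 + 6 * χ y := by
    have hpt : ∀ w : (P : Subgroup G),
        χ (w : G) = χ y + (if w = 1 then (9 - χ y) else 0) := by
      intro w
      split_ifs with h
      · rw [h, Subgroup.coe_one, h9]
        ring
      · rw [add_zero]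
        exact hconst w w.2 (fun h' => h (Subtype.ext h'))
    rw [Finset.sum_congr rfl (fun w _ => hpt w), Finset.sum_add_distrib, Finset.sum_const,
      Finset.sum_ite_eq' Finset.univ (1 : (P : Subgroup G)) (fun _ => 9 - χ y), Finset.card_univ,
      hcardP]
    simp
    ring
  obtain ⟨m, hm⟩ := Cfsg.Agent.Lib.Helper79.irr_sum_subgroup hχ (P : Subgroup G)
  rw [hsum, hP7] at hm
  have hq : χ y = (((7 * (m : ℚ) - 9) / 6 : ℚ) : ℂ) := by
    push_cast
    linear_combination hm / 6
  obtain ⟨t, ht⟩ := Cfsg.Agent.Lib.Helper80.exists_int_of_isIntegral_of_rat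
    (Cfsg.Agent.Lib.Helper80.isIntegral_char_val hχc y) _ hq
  rw [ht] at hm
  have hint : (9 + 6 * t : ℤ) = 7 * (m : ℤ) := by exact_mod_cast hm
  have ht2 : t ≤ -2 ∨ 2 ≤ t := by omega
  have h4 : (4 : ℤ) ≤ t ^ 2 := by
    rcases ht2 with h | h <;> nlinarith
  rw [ht, Complex.norm_intCast, sq_abs]
  exact_mod_cast h4

end

/-- **Package (D2).** -/
theorem lemNoDeg9 : Cfsg.Agent.Lib.Helper6.A7.LemNoDeg9.{u} := by
  intro G _ _ _ hD χ h9 hreal
  classical
  let _ : Fintype G := Fintype.ofFinite G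
  have h7 : Fact (Nat.Prime 7) := ⟨by norm_num⟩
  have hcard := hD.card
  have hχ : IsIrrCharacter G (χ : G → ℂ) := χ.2
  have hP7 : ∀ Q : Sylow 7 G, Nat.card (Q : Subgroup G) = 7 := by
    intro Q
    have := Cfsg.Agent.Lib.Helper17.card_sylow_eq_of_card_eq 7 1 360 (by rw [hcard]; norm_num) (by norm_num) Q
    simpa using this
  let P : Sylow 7 G := default
  -- the number of elements of order seven
  have hn7 : Nat.card (Sylow 7 G) = 120 := by
    have h1 := Cfsg.Agent.Lib.Helper17.card_sylow_mul_card_normalizer 7 P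
    rw [hD.n7 P, hcard] at h1
    omega
  have hT : Nat.card {x : G // orderOf x = 7} = 720 := by
    rw [Cfsg.Agent.Lib.Helper17.card_orderOf_eq_prime 7 P (hP7 P), hn7]
  set T : Finset G := Finset.univ.filter (fun g : G => orderOf g = 7) with hTdef
  have hTcard : T.card = 720 := by
    rw [← hT, Nat.card_eq_fintype_card, Fintype.card_subtype]
  have h1T : (1 : G) ∉ T := by
    rw [hTdef, Finset.mem_filter]
    rintro ⟨-, h⟩
    rw [orderOf_one] at h
    norm_num at h
  have hbound : ∀ g ∈ T, (4 : ℝ) ≤ ‖(χ : G → ℂ) g‖ ^ 2 := by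
    intro g hg
    rw [hTdef, Finset.mem_filter] at hg
    have hpg : IsPGroup 7 (Subgroup.zpowers g) := by
      apply IsPGroup.of_card (n := 1)
      rw [Nat.card_zpowers, hg.2, pow_one]
    obtain ⟨Q, hQ⟩ := hpg.exists_le_sylow
    have hgQ : g ∈ (Q : Subgroup G) := hQ (Subgroup.mem_zpowers g)
    have hg1 : g ≠ 1 := by
      rintro rfl
      rw [orderOf_one] at hg
      norm_num at hg
    exact four_le_norm_sq_of_sylow7 hχ h9 hreal Q (hP7 Q) (hD.c7 Q) (hD.n7 Q) g hgQ hg1
  have htot := Cfsg.Agent.Lib.Helper80.sum_norm_sq_eq_card hχ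
  rw [hcard] at htot
  have hsub : ∑ g ∈ insert (1 : G) T, ‖(χ : G → ℂ) g‖ ^ 2 ≤ ∑ g : G, ‖(χ : G → ℂ) g‖ ^ 2 :=
    Finset.sum_le_sum_of_subset_of_nonneg (Finset.subset_univ _) (fun g _ _ => by positivity)
  rw [Finset.sum_insert h1T] at hsub
  have hT4 : (T.card : ℝ) * 4 ≤ ∑ g ∈ T, ‖(χ : G → ℂ) g‖ ^ 2 := by
    have := Finset.card_nsmul_le_sum T (fun g => ‖(χ : G → ℂ) g‖ ^ 2) 4 hbound
    simpa [nsmul_eq_mul] using this
  have h81 : ‖(χ : G → ℂ) 1‖ ^ 2 = 81 := by
    rw [h9]
    norm_num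
  rw [hTcard] at hT4
  rw [h81, htot] at hsub
  norm_num at hT4 hsub
  linarith

end Cfsg.Agent.Lib.Helper3.A7
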